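import Cfsg.Agent.Lib.Helper65.S4415.ExtDefs

/-!
# S4415 [EXT], sub-package [X-NORM]

A bijective linear map of `H = ℍ[F_3]` carrying `L_i, L_j` to `L_p, L_p'` (`p, p' ∈ Q8`) is
`h ↦ α h γ` with units `α, γ`.
-/

set_option autoImplicit false

namespace Cfsg.Agent.Lib.Helper43.S4415

open Cfsg.Agent.Lib.Helper65.S4415

/-- decidable equality of quaternions over `F_3`, componentwise -/
instance decEqH : DecidableEq H := fun a b =>
  decidable_of_iff (a.re = b.re ∧ a.imI = b.imI ∧ a.imJ = b.imJ ∧ a.imK = b.imK)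
    ⟨fun ⟨h1, h2, h3, h4⟩ => Quaternion.ext a b h1 h2 h3 h4,
     fun h => by subst h; exact ⟨rfl, rfl, rfl, rfl⟩⟩

/-- the quaternion with the given coordinates -/
def mkH (a b c d : ZMod 3) : H := ⟨a, b, c, d⟩

theorem decompH : ∀ a b c d : ZMod 3,
    a • (1 : H) + b • qi + c • qj + d • (qi * qj) = mkH a b c d := by decide

/-- Skolem–Noether for the quaternion group inside `H`, with explicit witnesses. -/
theorem skolemQ8 (p p' : H) (hp : Q8 p) (hp' : Q8 p') (h1 : p * p = -1) (h2 : p' * p' = -1)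
    (h3 : p * p' = -(p' * p)) :
    ∃ α α' : H, α * α' = 1 ∧ α' * α = 1 ∧ α * qi = p * α ∧ α * qj = p' * α := by
  rcases hp with rfl | rfl | rfl | rfl | rfl | rfl | rfl | rfl <;>
  rcases hp' with rfl | rfl | rfl | rfl | rfl | rfl | rfl | rfl
  · exact absurd h1 (by decide)
  · exact absurd h1 (by decide)
  · exact absurd h1 (by decide)
  · exact absurd h1 (by decide)
  · exact absurd h1 (by decide)
  · exact absurd h1 (by decide)
  · exact absurd h1 (by decide)
  · exact absurd h1 (by decide)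
  · exact absurd h1 (by decide)
  · exact absurd h1 (by decide)
  · exact absurd h1 (by decide)
  · exact absurd h1 (by decide)
  · exact absurd h1 (by decide)
  · exact absurd h1 (by decide)
  · exact absurd h1 (by decide)
  · exact absurd h1 (by decide)
  · exact absurd h2 (by decide)
  · exact absurd h2 (by decide)
  · exact absurd h3 (by decide)
  · exact absurd h3 (by decide)
  · exact ⟨⟨1, 0, 0, 0⟩, ⟨1, 0, 0, 0⟩, by decide, by decide, by decide, by decide⟩
  · exact ⟨⟨0, 1, 0, 0⟩, ⟨0, 2, 0, 0⟩, by decide, by decide, by decide, by decide⟩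
  · exact ⟨⟨1, 1, 0, 0⟩, ⟨2, 1, 0, 0⟩, by decide, by decide, by decide, by decide⟩
  · exact ⟨⟨1, 2, 0, 0⟩, ⟨2, 2, 0, 0⟩, by decide, by decide, by decide, by decide⟩
  · exact absurd h2 (by decide)
  · exact absurd h2 (by decide)
  · exact absurd h3 (by decide)
  · exact absurd h3 (by decide)
  · exact ⟨⟨0, 0, 1, 0⟩, ⟨0, 0, 2, 0⟩, by decide, by decide, by decide, by decide⟩
  · exact ⟨⟨0, 0, 0, 1⟩, ⟨0, 0, 0, 2⟩, by decide, by decide, by decide, by decide⟩
  · exact ⟨⟨0, 0, 1, 1⟩, ⟨0, 0, 1, 1⟩, by decide, by decide, by decide, by decide⟩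
  · exact ⟨⟨0, 0, 1, 2⟩, ⟨0, 0, 1, 2⟩, by decide, by decide, by decide, by decide⟩
  · exact absurd h2 (by decide)
  · exact absurd h2 (by decide)
  · exact ⟨⟨0, 1, 1, 0⟩, ⟨0, 1, 1, 0⟩, by decide, by decide, by decide, by decide⟩
  · exact ⟨⟨1, 0, 0, 1⟩, ⟨2, 0, 0, 1⟩, by decide, by decide, by decide, by decide⟩
  · exact absurd h3 (by decide)
  · exact absurd h3 (by decide)
  · exact ⟨⟨1, 1, 1, 1⟩, ⟨1, 2, 2, 2⟩, by decide, by decide, by decide, by decide⟩
  · exact ⟨⟨1, 2, 2, 1⟩, ⟨1, 1, 1, 2⟩, by decide, by decide, by decide, by decide⟩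
  · exact absurd h2 (by decide)
  · exact absurd h2 (by decide)
  · exact ⟨⟨1, 0, 0, 2⟩, ⟨2, 0, 0, 2⟩, by decide, by decide, by decide, by decide⟩
  · exact ⟨⟨0, 1, 2, 0⟩, ⟨0, 1, 2, 0⟩, by decide, by decide, by decide, by decide⟩
  · exact absurd h3 (by decide)
  · exact absurd h3 (by decide)
  · exact ⟨⟨1, 1, 2, 2⟩, ⟨1, 2, 1, 1⟩, by decide, by decide, by decide, by decide⟩
  · exact ⟨⟨1, 2, 1, 2⟩, ⟨1, 1, 2, 1⟩, by decide, by decide, by decide, by decide⟩
  · exact absurd h2 (by decide)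
  · exact absurd h2 (by decide)
  · exact ⟨⟨1, 2, 2, 2⟩, ⟨1, 1, 1, 1⟩, by decide, by decide, by decide, by decide⟩
  · exact ⟨⟨1, 1, 2, 1⟩, ⟨1, 2, 1, 2⟩, by decide, by decide, by decide, by decide⟩
  · exact ⟨⟨1, 0, 2, 0⟩, ⟨2, 0, 2, 0⟩, by decide, by decide, by decide, by decide⟩
  · exact ⟨⟨0, 1, 0, 1⟩, ⟨0, 1, 0, 1⟩, by decide, by decide, by decide, by decide⟩
  · exact absurd h3 (by decide)
  · exact absurd h3 (by decide)
  · exact absurd h2 (by decide)
  · exact absurd h2 (by decide)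
  · exact ⟨⟨1, 1, 1, 2⟩, ⟨1, 2, 2, 1⟩, by decide, by decide, by decide, by decide⟩
  · exact ⟨⟨1, 2, 1, 1⟩, ⟨1, 1, 2, 2⟩, by decide, by decide, by decide, by decide⟩
  · exact ⟨⟨1, 0, 1, 0⟩, ⟨2, 0, 1, 0⟩, by decide, by decide, by decide, by decide⟩
  · exact ⟨⟨0, 1, 0, 2⟩, ⟨0, 1, 0, 2⟩, by decide, by decide, by decide, by decide⟩
  · exact absurd h3 (by decide)
  · exact absurd h3 (by decide)

/-- [X-NORM] -/
theorem pkgXNorm : PkgXNorm := by
  intro T T' p p' hTT' hT'T hp hp' hi hj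
  have hii : (qi * qi : H) = -1 := by decide
  have hjj : (qj * qj : H) = -1 := by decide
  have hij : (qi * qj : H) = -(qj * qi) := by decide
  have h1 : p * p = -1 := by
    have e1 : T (qi * (qi * T' 1)) = p * (p * 1) := by rw [hi, hi, hTT']
    have e2 : T (qi * (qi * T' 1)) = -1 := by
      rw [← mul_assoc, hii, neg_one_mul, map_neg, hTT']
    rw [← mul_one (p * p), mul_assoc, ← e1, e2]
  have h2 : p' * p' = -1 := by
    have e1 : T (qj * (qj * T' 1)) = p' * (p' * 1) := by rw [hj, hj, hTT']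
    have e2 : T (qj * (qj * T' 1)) = -1 := by
      rw [← mul_assoc, hjj, neg_one_mul, map_neg, hTT']
    rw [← mul_one (p' * p'), mul_assoc, ← e1, e2]
  have h3 : p * p' = -(p' * p) := by
    have e1 : T (qi * (qj * T' 1)) = p * (p' * 1) := by rw [hi, hj, hTT']
    have e2 : T (qj * (qi * T' 1)) = p' * (p * 1) := by rw [hj, hi, hTT']
    have e3 : qi * (qj * T' 1) = -(qj * (qi * T' 1)) := by
      rw [← mul_assoc, hij, neg_mul, mul_assoc]
    rw [e3, map_neg, e2, mul_one] at e1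
    rw [mul_one] at e1
    exact e1.symm
  obtain ⟨α, α', ha1, ha2, hai, haj⟩ := skolemQ8 p p' hp hp' h1 h2 h3
  obtain ⟨γ, hγ⟩ : ∃ γ : H, γ = α' * T 1 := ⟨_, rfl⟩
  have hαγ : α * γ = T 1 := by rw [hγ, ← mul_assoc, ha1, one_mul]
  have t1 : T 1 = α * 1 * γ := by rw [mul_one, hαγ]
  have ti : T qi = α * qi * γ := by
    have := hi 1
    rw [mul_one] at this
    rw [hai, mul_assoc, hαγ, this]
  have tj : T qj = α * qj * γ := by
    have := hj 1
    rw [mul_one] at this
    rw [haj, mul_assoc, hαγ, this]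
  have tk : T (qi * qj) = α * (qi * qj) * γ := by
    rw [hi, tj, ← mul_assoc α qi qj, hai, mul_assoc p α qj, mul_assoc p, mul_assoc α qj γ]
  have key : ∀ h : H, T h = α * h * γ := by
    rintro ⟨a, b, c, d⟩
    show T (mkH a b c d) = α * mkH a b c d * γ
    rw [← decompH a b c d]
    simp only [map_add, map_smul, mul_add, add_mul, smul_mul_assoc, mul_smul_comm]
    rw [t1, ti, tj, tk]
  refine ⟨α, γ, ?_, ?_, key⟩
  · intro h0
    have := congrArg Quaternion.normSq ha1
    rw [map_mul, h0, zero_mul, map_one] at this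
    exact zero_ne_one this
  · intro h0
    have e := key (T' 1)
    rw [hTT'] at e
    have := congrArg Quaternion.normSq e
    rw [map_mul, h0, mul_zero, map_one] at this
    exact one_ne_zero this

end Cfsg.Agent.Lib.Helper43.S4415
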